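import Cfsg.Agent.H858.VK

/-!
# Kernel checks of fixed vectors in the module of dimension 112 of the fourth Janko group

Generic part: independence of rows of packed matrices (`indep2_sound`), distinctness of numbers by a
bit mask (`uniq_sound`).
-/

set_option autoImplicit false

namespace Cfsg.Agent.H865.U3Chk

open Cfsg.Agent.Lib Cfsg.Agent.Lib.F2MatGroup Cfsg.Agent.Lib.F2Mat Cfsg.Agent.J4.Rep112 Cfsg.Agent.H858.VK

/-! ### The action on vectors -/

/-- vectors -/
abbrev Vec := Fin 112 → ZMod 2

/-- the matrix of an element -/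
noncomputable def mat (g : Cfsg.Spor.J4) : Matrix (Fin 112) (Fin 112) (ZMod 2) :=
  ((rho g : GL (Fin 112) (ZMod 2)) : Matrix (Fin 112) (Fin 112) (ZMod 2))

theorem mat_mul (g h : Cfsg.Spor.J4) : mat (g * h) = mat g * mat h := by
  unfold mat
  rw [map_mul, Units.val_mul]

theorem mat_one : mat 1 = 1 := by
  unfold mat
  rw [map_one, Units.val_one]

theorem mat_inj {g h : Cfsg.Spor.J4} (e : mat g = mat h) : g = h :=
  rho_injective (Units.ext e)

/-- the (right) action on vectors -/
noncomputable def act (m : Vec) (g : Cfsg.Spor.J4) : Vec := Matrix.vecMul m (mat g)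

theorem act_mul (m : Vec) (g h : Cfsg.Spor.J4) : act m (g * h) = act (act m g) h := by
  unfold act
  rw [mat_mul, Matrix.vecMul_vecMul]

theorem act_one (m : Vec) : act m 1 = m := by
  unfold act
  rw [mat_one, Matrix.vecMul_one]

theorem act_add (m n : Vec) (g : Cfsg.Spor.J4) : act (m + n) g = act m g + act n g := by
  unfold act
  rw [Matrix.add_vecMul]

theorem act_zero (g : Cfsg.Spor.J4) : act 0 g = 0 := by
  unfold act
  rw [Matrix.zero_vecMul]

theorem act_inv_cancel (m : Vec) (g : Cfsg.Spor.J4) : act (act m g) g⁻¹ = m := by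
  rw [← act_mul, mul_inv_cancel, act_one]

theorem act_cancel_inv (m : Vec) (g : Cfsg.Spor.J4) : act (act m g⁻¹) g = m := by
  rw [← act_mul, inv_mul_cancel, act_one]

/-! ### Independence -/

/-- row `i` -/
def row (D i : ℕ) : ℕ := Nat.mod (Nat.shiftRight D (Nat.mul 112 i)) (Nat.pow 2 112)

theorem row_testBit (D i k : ℕ) : (row D i).testBit k = (decide (k < 112) && D.testBit (112 * i + k)) := by
  show ((D >>> (112 * i)) % 2 ^ 112).testBit k = _
  rw [Nat.testBit_mod_two_pow, Nat.testBit_shiftRight]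

/-- no combination of the list added to the pair is zero -/
def nz2 (l : List (ℕ × ℕ)) : ℕ → ℕ → Bool :=
  List.rec (motive := fun _ => ℕ → ℕ → Bool) (fun a b => cond (Nat.beq a 0) (cond (Nat.beq b 0) false true) true)
    (fun d _ ih a b => cond (ih a b) (force (Nat.xor a d.1) fun a' => force (Nat.xor b d.2) fun b' => ih a' b')
      false) l

theorem nz2_nil (a b : ℕ) : nz2 [] a b = cond (Nat.beq a 0) (cond (Nat.beq b 0) false true) true := rfl

theorem nz2_cons (d : ℕ × ℕ) (l : List (ℕ × ℕ)) (a b : ℕ) :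
    nz2 (d :: l) a b = cond (nz2 l a b) (nz2 l (a ^^^ d.1) (b ^^^ d.2)) false := by
  show cond (nz2 l a b) (force (Nat.xor a d.1) fun a' => force (Nat.xor b d.2) fun b' => nz2 l a' b') false = _
  rw [force_eq, force_eq]
  rfl

/-- independence -/
def indep2 (l : List (ℕ × ℕ)) : Bool :=
  List.rec (motive := fun _ => Bool) true (fun d l ih => cond (nz2 l d.1 d.2) ih false) l

theorem indep2_cons (d : ℕ × ℕ) (l : List (ℕ × ℕ)) :
    indep2 (d :: l) = cond (nz2 l d.1 d.2) (indep2 l) false := rfl

/-- the list of the pairs of rows `n - 1, …, 0` -/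
def rowsL (D D' : ℕ) : ℕ → List (ℕ × ℕ)
  | 0 => []
  | n + 1 => (row D n, row D' n) :: rowsL D D' n

/-- the combination of rows -/
def xorN (D : ℕ) (c : ℕ → Bool) : ℕ → ℕ
  | 0 => 0
  | n + 1 => xorN D c n ^^^ cond (c n) (row D n) 0

theorem cond_true_of {a b : Bool} (h : cond a b false = true) : a = true ∧ b = true := by
  cases a
  · exact absurd h Bool.false_ne_true
  · exact ⟨rfl, h⟩

theorem nz2_sound {D D' : ℕ} {n : ℕ} : ∀ {a b : ℕ}, nz2 (rowsL D D' n) a b = true → ∀ c : ℕ → Bool,
    a ^^^ xorN D c n = 0 → b ^^^ xorN D' c n = 0 → False := by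
  induction n with
  | zero =>
    intro a b h c h1 h2
    have h1' : a = 0 := by simpa [xorN] using h1
    have h2' : b = 0 := by simpa [xorN] using h2
    subst h1' h2'
    rw [rowsL, nz2_nil] at h
    exact absurd h (by decide)
  | succ n ih =>
    intro a b h c h1 h2
    rw [rowsL, nz2_cons] at h
    obtain ⟨h3, h4⟩ := cond_true_of h
    rcases hc : c n with _ | _
    · refine ih h3 c ?_ ?_
      · rw [xorN, hc] at h1; simpa using h1
      · rw [xorN, hc] at h2; simpa using h2
    · refine ih h4 c ?_ ?_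
      · rw [xorN, hc] at h1
        rw [← h1, cond_true, Nat.xor_assoc, Nat.xor_comm (row D n)]
      · rw [xorN, hc] at h2
        rw [← h2, cond_true, Nat.xor_assoc, Nat.xor_comm (row D' n)]

theorem indep2_sound {D D' : ℕ} {n : ℕ} (h : indep2 (rowsL D D' n) = true) (c : ℕ → Bool)
    (h1 : xorN D c n = 0) (h2 : xorN D' c n = 0) : ∀ i < n, c i = false := by
  induction n with
  | zero => intro i hi; omega
  | succ n ih =>
    rw [rowsL, indep2_cons] at h
    obtain ⟨h3, h4⟩ := cond_true_of h
    have hc : c n = false := by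
      by_contra hc
      rw [Bool.not_eq_false] at hc
      rw [xorN, hc, cond_true, Nat.xor_comm] at h1
      rw [xorN, hc, cond_true, Nat.xor_comm] at h2
      exact nz2_sound h3 c h1 h2
    intro i hi
    rcases Nat.lt_succ_iff_lt_or_eq.1 hi with h5 | rfl
    · refine ih h4 ?_ ?_ i h5
      · rw [xorN, hc] at h1; simpa using h1
      · rw [xorN, hc] at h2; simpa using h2
    · exact hc

theorem bz_xorN (D : ℕ) (c : ℕ → Bool) (n k : ℕ) (hk : k < 112) :
    bz ((xorN D c n).testBit k) = ∑ i ∈ Finset.range n, bz (c i) * bz (D.testBit (112 * i + k)) := by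
  induction n with
  | zero => simp [xorN, bz]
  | succ n ih =>
    rw [xorN, Nat.testBit_xor, bz_xor, ih, Finset.sum_range_succ]
    congr 1
    cases c n
    · simp [bz]
    · rw [cond_true, row_testBit, decide_eq_true hk, Bool.true_and, bz_true, one_mul]

theorem xorN_lt (D : ℕ) (c : ℕ → Bool) (n : ℕ) : xorN D c n < 2 ^ 112 := by
  induction n with
  | zero => exact Nat.two_pow_pos _
  | succ n ih =>
    rw [xorN]
    refine Nat.xor_lt_two_pow ih ?_
    cases c n
    · exact Nat.two_pow_pos _
    · exact Nat.mod_lt _ (Nat.two_pow_pos _)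

/-- a vector supported on the first `n` coordinates, killing the matrix -/
theorem xorN_eq_zero {D n : ℕ} (hn : n ≤ 112) {v : Vec} (hv : ∀ i : Fin 112, n ≤ i.val → v i = 0)
    (h : Matrix.vecMul v (toMat 112 D) = 0) :
    xorN D (fun i => if hi : i < 112 then decide (v ⟨i, hi⟩ ≠ 0) else false) n = 0 := by
  apply Nat.eq_of_testBit_eq
  intro k
  rw [Nat.zero_testBit]
  rcases Nat.lt_or_ge k 112 with hk | hk
  · apply bz_inj
    rw [bz_xorN D _ n k hk]
    have h1 := congrFun h ⟨k, hk⟩
    rw [Matrix.vecMul, dotProduct, Finset.sum_fin_eq_sum_range] at h1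
    have h2 : ∀ x : ZMod 2, bz (decide (x ≠ 0)) = x := by decide
    have h3 : ∀ i ∈ Finset.range n,
        bz (if hi : i < 112 then decide (v ⟨i, hi⟩ ≠ 0) else false) * bz (D.testBit (112 * i + k)) =
        (if hi : i < 112 then v ⟨i, hi⟩ * toMat 112 D ⟨i, hi⟩ ⟨k, hk⟩ else 0) := by
      intro i hi
      rw [Finset.mem_range] at hi
      rw [dif_pos (by omega), dif_pos (by omega), h2]
      rfl
    rw [Finset.sum_congr rfl h3]
    have h4 : ∑ i ∈ Finset.range n, (if hi : i < 112 then v ⟨i, hi⟩ * toMat 112 D ⟨i, hi⟩ ⟨k, hk⟩ else 0) =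
        ∑ i ∈ Finset.range 112, (if hi : i < 112 then v ⟨i, hi⟩ * toMat 112 D ⟨i, hi⟩ ⟨k, hk⟩ else 0) := by
      apply Finset.sum_subset (Finset.range_subset_range.2 hn)
      intro i hi1 hi2
      rw [Finset.mem_range] at hi1 hi2
      rw [dif_pos hi1, hv ⟨i, hi1⟩ (by show n ≤ i; omega), zero_mul]
    rw [h4]
    exact h1
  · exact Nat.testBit_lt_two_pow (lt_of_lt_of_le (xorN_lt _ _ _) (Nat.pow_le_pow_right (by norm_num) hk))

theorem indep2_vec {D D' n : ℕ} (hn : n ≤ 112) (h : indep2 (rowsL D D' n) = true) {v : Vec}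
    (hv : ∀ i : Fin 112, n ≤ i.val → v i = 0) (h1 : Matrix.vecMul v (toMat 112 D) = 0)
    (h2 : Matrix.vecMul v (toMat 112 D') = 0) : v = 0 := by
  have h3 := indep2_sound h _ (xorN_eq_zero hn hv h1) (xorN_eq_zero hn hv h2)
  funext i
  rcases Nat.lt_or_ge i.val n with hi | hi
  · have h4 := h3 i.val hi
    rw [dif_pos i.2] at h4
    by_contra h5
    have h6 : decide (v ⟨i.val, i.2⟩ ≠ 0) = true := decide_eq_true h5
    rw [h4] at h6
    exact Bool.false_ne_true h6
  · exact hv i hi

theorem toMat_xor (A B : ℕ) : toMat 112 (A ^^^ B) = toMat 112 A + toMat 112 B := by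
  ext i j
  rw [Matrix.add_apply, toMat_apply, toMat_apply, toMat_apply, Nat.testBit_xor, bz_xor]

/-! ### Distinctness -/

/-- distinctness modulo `p` -/
def uniq (p : ℕ) (l : List ℕ) : ℕ → Bool :=
  List.rec (motive := fun _ => ℕ → Bool) (fun _ => true)
    (fun k _ ih acc => force (Nat.mod k p) fun h => force (Nat.land (Nat.shiftRight acc h) 1) fun b =>
      cond (Nat.beq b 0) (force (Nat.lor acc (Nat.shiftLeft 1 h)) fun acc' => ih acc') false) l

theorem uniq_cons (p k : ℕ) (l : List ℕ) (acc : ℕ) : uniq p (k :: l) acc =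
    cond (Nat.beq ((acc >>> (k % p)) &&& 1) 0) (uniq p l (acc ||| (1 <<< (k % p)))) false := by
  show (force (Nat.mod k p) fun h => force (Nat.land (Nat.shiftRight acc h) 1) fun b =>
    cond (Nat.beq b 0) (force (Nat.lor acc (Nat.shiftLeft 1 h)) fun acc' => uniq p l acc') false) = _
  rw [force_eq, force_eq, force_eq]
  rfl

theorem uniq_sound {p : ℕ} : ∀ {l : List ℕ} {acc : ℕ}, uniq p l acc = true →
    (l.map (· % p)).Nodup ∧ ∀ k ∈ l, acc.testBit (k % p) = false := by
  intro l
  induction l with
  | nil => intro acc _; exact ⟨List.nodup_nil, by simp⟩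
  | cons k l ih =>
    intro acc h
    rw [uniq_cons] at h
    obtain ⟨h1, h2⟩ := cond_true_of h
    obtain ⟨h3, h4⟩ := ih h2
    have h5 : acc.testBit (k % p) = false := by
      have h6 := Nat.eq_of_beq_eq_true h1
      rw [Nat.testBit, Nat.and_comm, h6]
      rfl
    have h7 : ∀ j ∈ l, acc.testBit (j % p) = false ∧ j % p ≠ k % p := by
      intro j hj
      have h8 := h4 j hj
      rw [Nat.testBit_or, Bool.or_eq_false_iff] at h8
      refine ⟨h8.1, fun h9 => ?_⟩
      have h10 := h8.2
      rw [h9, Nat.one_shiftLeft, Nat.testBit_two_pow_self] at h10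
      exact Bool.false_ne_true h10.symm
    constructor
    · rw [List.map_cons, List.nodup_cons]
      refine ⟨?_, h3⟩
      rw [List.mem_map]
      rintro ⟨j, hj, h8⟩
      exact (h7 j hj).2 h8
    · intro j hj
      rcases List.mem_cons.1 hj with rfl | hj
      · exact h5
      · exact (h7 j hj).1

theorem nodup_of_uniq {p : ℕ} {l : List ℕ} (h : uniq p l 0 = true) : l.Nodup :=
  List.Nodup.of_map _ (uniq_sound h).1

/-! ### Loops -/

/-- all members -/
def allL {α : Type} (f : α → Bool) (l : List α) : Bool :=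
  List.rec (motive := fun _ => Bool) true (fun a _ ih => cond (f a) ih false) l

theorem allL_sound {α : Type} {f : α → Bool} : ∀ {l : List α}, allL f l = true → ∀ a ∈ l, f a = true := by
  intro l
  induction l with
  | nil => intro _ a ha; exact absurd ha List.not_mem_nil
  | cons b l ih =>
    intro h a ha
    have h' : cond (f b) (allL f l) false = true := h
    obtain ⟨h1, h2⟩ := cond_true_of h'
    rcases List.mem_cons.1 ha with rfl | ha
    · exact h1
    · exact ih h2 a ha

/-- independence of the first seven rows of two matrices, with evaluated rows -/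
def ind7 (D D' : ℕ) : Bool :=
  force (row D 0) fun a0 => force (row D' 0) fun b0 => force (row D 1) fun a1 => force (row D' 1) fun b1 =>
  force (row D 2) fun a2 => force (row D' 2) fun b2 => force (row D 3) fun a3 => force (row D' 3) fun b3 =>
  force (row D 4) fun a4 => force (row D' 4) fun b4 => force (row D 5) fun a5 => force (row D' 5) fun b5 =>
  force (row D 6) fun a6 => force (row D' 6) fun b6 =>
    indep2 [(a6, b6), (a5, b5), (a4, b4), (a3, b3), (a2, b2), (a1, b1), (a0, b0)]

theorem ind7_eq (D D' : ℕ) : ind7 D D' = indep2 (rowsL D D' 7) := by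
  unfold ind7
  simp only [force_eq]
  rfl

end Cfsg.Agent.H865.U3Chk
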