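import Cfsg.Agent.H865.U3Over

/-!
# The subgroup `⟨s₁, s₂⟩` is maximal, of order 6048 and isomorphic to `U₃(3)`
-/

set_option autoImplicit false

namespace Cfsg.Agent.H865.U3Sys

open Cfsg Subgroup
open Cfsg.Agent.OrdDiv
open Cfsg.Agent.H866.J4Ord Cfsg.Agent.H866.J4Min Cfsg.Agent.H866.OddTools Cfsg.Agent.H866.J4Odd
open Cfsg.Agent.OddOrderLocal.SylIn Cfsg.Agent.OddOrderLocal
open Cfsg.Agent.H859

universe u

theorem names_psu3 : ∀ x ∈ names, x.2 = 6048 → x.1 = Grp.psu 3 3 := by decide +kernel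

variable {G : Type u} [Group G] [Finite G] {V : Type} [AddCommGroup V] {act : V → G → V}
  {s1 s2 c w yy h l k g tt : G} {v1 : V}

namespace Sys

theorem fix_v1 (S : Sys act s1 s2 c w yy h l k g tt v1) : ∀ u ∈ closure {s1, s2}, act v1 u = v1 := by
  intro u hu
  induction hu using Subgroup.closure_induction with
  | mem x hx =>
    rcases hx with rfl | rfl
    · exact S.v1_s1
    · exact S.v1_s2
  | one => exact S.act_one _
  | mul a b _ _ ha hb => rw [S.act_mul, ha, hb]
  | inv a _ ha =>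
    conv_lhs => rw [← ha]
    rw [← S.act_mul, mul_inv_cancel, S.act_one]

theorem ne_top (S : Sys act s1 s2 c w yy h l k g tt v1) : closure {s1, s2} ≠ ⊤ := by
  intro h0
  obtain ⟨y, hy⟩ := S.v1_y
  exact hy (S.fix_v1 y (h0 ▸ mem_top y))

/-- no involution commuting with `c` normalizes `⟨s₁, s₂⟩` -/
theorem no_inv (S : Sys act s1 s2 c w yy h l k g tt v1) {y : G} (hy : y * y = 1) (hy1 : y ≠ 1)
    (hyc : y * c = c * y) (hn : y ∈ normalizer ((closure {s1, s2} : Subgroup G) : Set G)) : False := by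
  by_cases h0 : act v1 y = v1
  · exact S.v1_ne (S.key y hy hy1 hyc v1 (S.fix_v1 h S.h_mem) (S.fix_v1 l S.l_mem) h0 (by rw [S.v1_s2, h0]))
  · have h1 : ∀ u ∈ closure {s1, s2}, act (v1 + act v1 y) u = v1 + act v1 y := by
      intro u hu
      have h2 : y * u * y⁻¹ ∈ closure {s1, s2} := ((mem_normalizer_iff.1 hn) u).1 hu
      rw [S.act_add, S.fix_v1 u hu, ← S.act_mul]
      have h3 : y * u = y * u * y⁻¹ * y := by group
      rw [h3, S.act_mul, S.fix_v1 _ h2]
    have h2 : act (v1 + act v1 y) y = v1 + act v1 y := by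
      rw [S.act_add, ← S.act_mul, hy, S.act_one, add_comm]
    have h3 := S.key y hy hy1 hyc _ (h1 h S.h_mem) (h1 l S.l_mem) h2 (by
      rw [h1 s2 (subset_closure (by simp)), h2])
    apply h0
    have h4 := S.v2 v1
    rw [← h3] at h4
    exact (add_left_cancel h4).symm

theorem isSyl3 (S : Sys act s1 s2 c w yy h l k g tt v1) (F : Facts G) {H : Subgroup G}
    (hH : closure {s1, s2} ≤ H) : haveI : Fact (Nat.Prime 3) := ⟨Nat.prime_three⟩; IsSyl 3 (Heis.gp S.rel) H := by
  have f3 : Fact (Nat.Prime 3) := ⟨Nat.prime_three⟩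
  refine ⟨S.gp_le.trans hH, Heis.isPGroup S.rel, fun h0 => ?_⟩
  have h1 := card_mul_relIndex (S.gp_le.trans hH)
  rw [S.card_gp] at h1
  obtain ⟨d, hd⟩ := h0
  have h2 : 81 ∣ Nat.card H := ⟨d, by rw [← h1, hd]; ring⟩
  have h3 := h2.trans (F.dvd H)
  norm_num [nJ] at h3

theorem h_norm (S : Sys act s1 s2 c w yy h l k g tt v1) : h ∈ normalizer (Heis.gp S.rel : Set G) := by
  have f3 : Fact (Nat.Prime 3) := ⟨Nat.prime_three⟩
  have hc := Heis.a_mem S.rel
  have hy := Heis.b_mem S.rel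
  have hw := Heis.w_mem S.rel
  apply Heis.mem_normalizer S.rel
  · rw [S.h_c, mul_inv_cancel_right]
    exact mul_mem (mul_mem hc hy) hy
  · rw [S.h_yy, mul_inv_cancel_right]
    exact mul_mem (mul_mem hc hy) hw
  · rw [S.h_w, mul_inv_cancel_right]
    exact mul_mem hw hw

theorem dvd216 (S : Sys act s1 s2 c w yy h l k g tt v1) :
    216 ∣ Nat.card (normalizer (Heis.gp S.rel : Set G) ⊓ closure {s1, s2} : Subgroup G) := by
  have h1 : 27 ∣ Nat.card (normalizer (Heis.gp S.rel : Set G) ⊓ closure {s1, s2} : Subgroup G) := by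
    rw [← S.card_gp]
    exact Subgroup.card_dvd_of_le (le_inf Subgroup.le_normalizer S.gp_le)
  have h2 : 8 ∣ Nat.card (normalizer (Heis.gp S.rel : Set G) ⊓ closure {s1, s2} : Subgroup G) := by
    have h3 : orderOf h = 8 := orderOf_eq_prime_pow (p := 2) (n := 2) S.h_ne S.h_pow
    rw [← h3, ← Nat.card_zpowers]
    exact Subgroup.card_dvd_of_le (zpowers_le.2 (mem_inf.2 ⟨S.h_norm, S.h_mem⟩))
  omega

/-- the centralizer of `c` in a subgroup of `N(P)` of order at least 432 has even order -/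
theorem exists_inv (S : Sys act s1 s2 c w yy h l k g tt v1) (F : Facts G) (N : N27 G) {M : Subgroup G}
    (hM : M ≤ normalizer (Heis.gp S.rel : Set G)) (hc : 432 ≤ Nat.card M) :
    ∃ y ∈ M, y * y = 1 ∧ y ≠ 1 ∧ y * c = c * y := by
  have f3 : Fact (Nat.Prime 3) := ⟨Nat.prime_three⟩
  set P := Heis.gp S.rel with hP
  have hcP : c ∈ P := Heis.a_mem S.rel
  have hyP : yy ∈ P := Heis.b_mem S.rel
  let _ : MulAction M P := MulAction.compHom P (P.normalizerMonoidHom.comp (Subgroup.inclusion hM))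
  have hsm : ∀ (u : M) (x : P), ((u • x : P) : G) = (u : G) * x * (u : G)⁻¹ := fun u x => rfl
  let c' : P := ⟨c, hcP⟩
  have h1 := Subgroup.card_mul_index (MulAction.stabilizer M c')
  rw [MulAction.index_stabilizer] at h1
  -- the orbit
  have h2 : (MulAction.orbit M c').ncard ≤ 24 := by
    have h3 : MulAction.orbit M c' ⊆ (((zpowers w).subgroupOf P : Subgroup P) : Set P)ᶜ := by
      rintro _ ⟨u, rfl⟩ h4
      have h5 : (u : G) * c * (u : G)⁻¹ ∈ zpowers w := h4
      have h6 : ∀ x ∈ P, x * ((u : G) * c * (u : G)⁻¹) = ((u : G) * c * (u : G)⁻¹) * x := by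
        intro x hx
        obtain ⟨n, hn⟩ := h5
        have h7 : Commute x (w ^ n) := Commute.zpow_right (show x * w = w * x from (Heis.w_comm S.rel hx).symm) n
        have h8 : w ^ n = (u : G) * c * (u : G)⁻¹ := hn
        rw [← h8]
        exact h7.eq
      have h7 := h6 ((u : G) * yy * (u : G)⁻¹) (((mem_normalizer_iff.1 (hM u.2)) yy).1 hyP)
      apply Heis.not_comm S.rel
      have h8 : (u : G) * (yy * c) * (u : G)⁻¹ = (u : G) * (c * yy) * (u : G)⁻¹ := by
        calc (u : G) * (yy * c) * (u : G)⁻¹ = (u : G) * yy * (u : G)⁻¹ * ((u : G) * c * (u : G)⁻¹) := by group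
          _ = _ := by rw [h7]; group
      exact mul_left_cancel (mul_right_cancel h8)
    have h4 := Set.ncard_le_ncard h3 (Set.toFinite _)
    have h5 := Set.ncard_add_ncard_compl (((zpowers w).subgroupOf P : Subgroup P) : Set P)
    have h6 : (((zpowers w).subgroupOf P : Subgroup P) : Set P).ncard = 3 := by
      have h7 : zpowers w ≤ P := zpowers_le.2 (Heis.w_mem S.rel)
      have h8 := Nat.card_congr (Subgroup.subgroupOfEquivOfLe h7).toEquiv
      rw [Nat.card_zpowers, Heis.orderOf_w S.rel] at h8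
      exact h8
    rw [h6, S.card_gp] at h5
    omega
  have h3 : 18 ≤ Nat.card (MulAction.stabilizer M c') := by
    by_contra h0
    have h4 : Nat.card (MulAction.stabilizer M c') * (MulAction.orbit M c').ncard ≤ 17 * 24 :=
      Nat.mul_le_mul (by omega) h2
    omega
  set T : Subgroup G := (MulAction.stabilizer M c').map M.subtype with hT
  have hTc : Nat.card T = Nat.card (MulAction.stabilizer M c') :=
    Subgroup.card_map_of_injective M.subtype_injective
  have hTM : T ≤ M := Subgroup.map_subtype_le _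
  have hTcent : ∀ y ∈ T, y * c = c * y := by
    rintro _ ⟨u, hu, rfl⟩
    have h4 : u • c' = c' := hu
    have h5 := congrArg Subtype.val h4
    rw [hsm] at h5
    exact mul_inv_eq_iff_eq_mul.1 h5
  by_cases heven : 2 ∣ Nat.card T
  · have f2 : Fact (Nat.Prime 2) := ⟨Nat.prime_two⟩
    obtain ⟨y, hy⟩ := exists_prime_orderOf_dvd_card' (G := T) 2 heven
    have hy' : orderOf (y : G) = 2 := by rw [Subgroup.orderOf_coe, hy]
    refine ⟨y, hTM y.2, ?_, ?_, hTcent y y.2⟩
    · rw [← pow_two, ← hy', pow_orderOf_eq_one]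
    · intro h4
      rw [h4, orderOf_one] at hy'
      norm_num at hy'
  · exfalso
    have h4 : Nat.card T ∣ 864 := by
      rw [← N _ S.card_gp]
      exact Subgroup.card_dvd_of_le (hTM.trans hM)
    have h5 : Nat.card T = 27 := by
      have h6 : ∀ n ∈ Nat.divisors 864, ¬ 2 ∣ n → 18 ≤ n → n = 27 := by decide +kernel
      exact h6 _ (Nat.mem_divisors.2 ⟨h4, by norm_num⟩) heven (hTc ▸ h3)
    have h6 : T ≤ P := S.le_gp F (IsPGroup.of_card (n := 3) (by rw [h5]; norm_num)) (hTM.trans hM)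
    have h7 : T = P := Subgroup.eq_of_le_of_card_ge h6 (by rw [h5, S.card_gp])
    exact Heis.not_comm S.rel (hTcent yy (h7 ▸ hyP))

/-- **the subgroup is maximal** -/
theorem main (S : Sys act s1 s2 c w yy h l k g tt v1) (F : Facts G) (N : N27 G) :
    ∃ M : Subgroup G, IsCoatom M ∧ ∃ (F : Type) (_ : Field F) (_ : Fintype F),
      Fintype.card F = 9 ∧ Nonempty (M ≃* Cfsg.PSU 3 F 3) := by
  have f3 : Fact (Nat.Prime 3) := ⟨Nat.prime_three⟩
  obtain ⟨R, hR1, -, hR3, hR4, hR5, hR6⟩ := S.component F N le_rfl S.ne_top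
  obtain rfl : R = closure {s1, s2} := le_antisymm hR1 hR6
  refine ⟨closure {s1, s2}, ⟨S.ne_top, fun H hH => ?_⟩, ?_⟩
  · by_contra hHT
    obtain ⟨K, hK1, hK2, -, -, hK5, hK6⟩ := S.component F N hH.le hHT
    have hK : closure {s1, s2} = K := Subgroup.eq_of_le_of_card_ge hK6 (by rw [hK5, hR5])
    rw [← hK] at hK2
    have h1 := frattini_card hH.le hK2 (S.isSyl3 F le_rfl)
    have h2 := S.dvd216
    have h3 : Nat.card (normalizer (Heis.gp S.rel : Set G) ⊓ closure {s1, s2} : Subgroup G) ∣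
        Nat.card (normalizer (Heis.gp S.rel : Set G) ⊓ H : Subgroup G) :=
      Subgroup.card_dvd_of_le (inf_le_inf_left _ hH.le)
    obtain ⟨y, hy, hy2, hy1, hyc⟩ := S.exists_inv F N
      (M := normalizer (Heis.gp S.rel : Set G) ⊓ H) inf_le_left (by
        obtain ⟨d, hd⟩ := h3
        obtain ⟨e, he⟩ := h2
        have h4 : d ≠ 0 := by
          rintro rfl
          rw [mul_zero] at hd
          exact Nat.card_pos.ne' hd
        have h5 : e ≠ 0 := by
          rintro rfl
          rw [mul_zero] at he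
          exact Nat.card_pos.ne' he
        have h6 : d ≠ 1 := by
          rintro rfl
          rw [mul_one] at hd
          rw [hd] at h1
          have h7 := Nat.eq_of_mul_eq_mul_right Nat.card_pos h1
          exact absurd (Subgroup.eq_of_le_of_card_ge hH.le h7.le) hH.ne
        rw [hd, he]
        have h7 : 1 ≤ e := by omega
        have h8 : 2 ≤ d := by omega
        calc 432 = 216 * 1 * 2 := by norm_num
          _ ≤ 216 * e * d := Nat.mul_le_mul (Nat.mul_le_mul_left _ h7) h8)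
    exact S.no_inv hy2 hy1 hyc (hK2 hy.2)
  · obtain ⟨x, hx, hr, hxc⟩ := exists_name F.tab (F.known (closure {s1, s2} : Subgroup G)) hR4 (F.dvd _)
    rw [names_psu3 x hx (by rw [← hxc, hR5])] at hr
    obtain ⟨F', i1, i2, h1, ⟨ε⟩⟩ := hr
    exact ⟨F', i1, i2, h1, ⟨ε⟩⟩

end Sys

end Cfsg.Agent.H865.U3Sys
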