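import Cfsg.Agent.H865.U3Run
import Cfsg.Agent.H865.U3Max
import Cfsg.Agent.H866.J4CentThree
import Cfsg.Agent.H821.J4MaxB
import Cfsg.Agent.S5565

/-!
# The maximal subgroup `U₃(3)` of the fourth Janko group
-/

set_option autoImplicit false

namespace Cfsg.Agent.H865.U3Main

open Cfsg Subgroup
open Cfsg.Agent.H866.J4Ord Cfsg.Agent.H866.J4Odd
open Cfsg.Agent.OddOrderLocal.SylIn Cfsg.Agent.OddOrderLocal
open Cfsg.Agent.H865.U3Sys Cfsg.Agent.H865.U3Chk

universe u

/-- the normalizers of the Sylow 3-subgroups -/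
theorem n27 {G : Type u} [Group G] [Finite G] [IsSimpleGroup G] (hG : ¬ IsMulCommutative G)
    (hJ : IsOfJankoFourType G) (F : Facts G) : N27 G := by
  have f3 : Fact (Nat.Prime 3) := ⟨Nat.prime_three⟩
  obtain ⟨z, hz⟩ := hJ
  have hcz := (H821.J4MaxB.facts hz).card_cent
  obtain ⟨Q, hQ⟩ := exists_isSyl 3 (centralizer ({z} : Set G))
  have h4 : ¬ 3 ^ 4 ∣ nJ := by norm_num [nJ]
  have hQ27 : Nat.card Q = 27 := by
    obtain ⟨j, hj⟩ := IsPGroup.iff_card.1 hQ.isPGroup
    have h1 : j ≤ 3 := by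
      by_contra h3
      exact h4 ((pow_dvd_pow 3 (by omega)).trans (hj ▸ F.dvd Q))
    have h2 : 3 ≤ j := by
      have h3 := card_mul_relIndex hQ.le
      have h5 : 3 ^ 3 ∣ 3 ^ j * Q.relIndex (centralizer ({z} : Set G)) := by
        rw [← hj, h3, hcz]
        norm_num
      have h6 : Nat.Coprime (3 ^ 3) (Q.relIndex (centralizer ({z} : Set G))) :=
        Nat.Coprime.pow_left _ ((Nat.Prime.coprime_iff_not_dvd Nat.prime_three).2 hQ.not_dvd)
      exact (Nat.pow_dvd_pow_iff_le_right (by norm_num)).1 (h6.dvd_of_dvd_mul_right h5)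
    obtain rfl : j = 3 := by omega
    rw [hj]
    norm_num
  have hfac : (Nat.card G).factorization 3 = 3 := by
    rw [F.card]
    apply le_antisymm
    · by_contra h0
      push Not at h0
      exact h4 ((Nat.pow_dvd_pow 3 h0).trans (Nat.ordProj_dvd _ _))
    · exact (Nat.prime_three.pow_dvd_iff_le_factorization (by norm_num [nJ])).1 (by norm_num [nJ])
  have h27 : ∀ P : Subgroup G, Nat.card P = 27 → Nat.card P = 3 ^ (Nat.card G).factorization 3 := by
    intro P hP
    rw [hP, hfac]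
    norm_num
  have h1 := (S5565.result hG z hz (Sylow.ofCard Q (h27 Q hQ27)) hQ.le).2.2.2.2
  intro P hP
  have h2 := (Sylow.ofCard Q (h27 Q hQ27)).card_eq_index_normalizer
  have h3 := (Sylow.ofCard P (h27 P hP)).card_eq_index_normalizer
  rw [h2] at h3
  have h3' : (normalizer (Q : Set G)).index = (normalizer (P : Set G)).index := h3
  have h1' : Nat.card (normalizer (Q : Set G)) = 864 := h1
  have h5 := Subgroup.card_mul_index (normalizer (Q : Set G))
  have h6 := Subgroup.card_mul_index (normalizer (P : Set G))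
  rw [← h6, h3'] at h5
  rw [← Nat.eq_of_mul_eq_mul_right (Nat.pos_of_ne_zero Subgroup.index_ne_zero_of_finite) h5, h1']

theorem orderOf_c : orderOf U3Run.c = 3 := by
  have f3 : Fact (Nat.Prime 3) := ⟨Nat.prime_three⟩
  refine orderOf_eq_prime U3Run.c_pow fun h0 => U3Run.s1_ne ?_
  have h1 := U3Run.c_s1
  rw [h0, one_mul, mul_one] at h1
  exact left_eq_mul.1 h1

/-- the involutions commuting with `c` -/
theorem mem_InvL {G : Type u} [Group G] [Finite G] [IsSimpleGroup G] (hG : ¬ IsMulCommutative G)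
    (hJ : IsOfJankoFourType G) (e : Cfsg.Spor.J4 ≃* G) {v : Cfsg.Spor.J4} (h1 : v * v = 1) (h2 : v ≠ 1)
    (h3 : v * U3Run.c = U3Run.c * v) : v ∈ U3Run.InvL := by
  classical
  have hfin : Finite Cfsg.Spor.J4 := Finite.of_equiv G e.symm.toEquiv
  have hx : orderOf (e U3Run.c) = 3 := by rw [e.orderOf_eq, orderOf_c]
  have h4 := H866.J4CentThree.ncard_inv_le hG hJ hx
  have h5 : e '' {v : Cfsg.Spor.J4 | v * v = 1 ∧ v ≠ 1 ∧ v * U3Run.c = U3Run.c * v} =
      {v : G | v * v = 1 ∧ v ≠ 1 ∧ v * e U3Run.c = e U3Run.c * v} := by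
    ext y
    constructor
    · rintro ⟨v, ⟨h1, h2, h3⟩, rfl⟩
      refine ⟨by rw [← map_mul, h1, map_one], fun h0 => h2 ?_, by rw [← map_mul, h3, map_mul]⟩
      exact e.injective (by rw [h0, map_one])
    · rintro ⟨h1, h2, h3⟩
      refine ⟨e.symm y, ⟨?_, fun h0 => h2 ?_, ?_⟩, e.apply_symm_apply y⟩
      · rw [← map_mul, h1, map_one]
      · rw [← e.apply_symm_apply y, h0, map_one]
      · apply e.injective
        rw [map_mul, map_mul, e.apply_symm_apply, h3]
  rw [← h5, Set.ncard_image_of_injective _ e.injective] at h4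
  have h6 : (U3Run.InvL.toFinset : Set Cfsg.Spor.J4) ⊆
      {v : Cfsg.Spor.J4 | v * v = 1 ∧ v ≠ 1 ∧ v * U3Run.c = U3Run.c * v} := by
    intro v hv
    exact U3Run.InvL_spec (List.mem_toFinset.1 hv)
  have h7 : (U3Run.InvL.toFinset : Set Cfsg.Spor.J4).ncard = 2311 := by
    rw [Set.ncard_coe_finset, List.toFinset_card_of_nodup U3Run.InvL_nodup, U3Run.InvL_length]
  have h8 := Set.eq_of_subset_of_ncard_le h6 (by rw [h7]; exact h4) (Set.toFinite _)
  have h9 : v ∈ (U3Run.InvL.toFinset : Set Cfsg.Spor.J4) := by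
    rw [h8]
    exact ⟨h1, h2, h3⟩
  exact List.mem_toFinset.1 h9

/-- the system -/
theorem sys {G : Type u} [Group G] [Finite G] [IsSimpleGroup G] (hG : ¬ IsMulCommutative G)
    (hJ : IsOfJankoFourType G) (e : Cfsg.Spor.J4 ≃* G) :
    Sys (G := G) (V := Vec) (fun m a => act m (e.symm a)) (e U3Run.s1) (e U3Run.s2) (e U3Run.c) (e U3Run.w)
      (e U3Run.yy) (e U3Run.h) (e U3Run.l) (e U3Run.k) (e U3Run.g) (e U3Run.tt)
      (Lib.F2Mat.toVec 112 U3Data.v1) := by
  have hcl : ∀ x ∈ U3Run.U0, e x ∈ closure {e U3Run.s1, e U3Run.s2} := by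
    intro x hx
    have h1 : U3Run.U0.map e.toMonoidHom = closure {e U3Run.s1, e U3Run.s2} := by
      unfold U3Run.U0
      rw [MonoidHom.map_closure]
      congr 1
      rw [Set.image_pair]
      rfl
    rw [← h1]
    exact ⟨x, hx, rfl⟩
  have hne : ∀ {x : Cfsg.Spor.J4}, x ≠ 1 → e x ≠ 1 := fun hx h0 => hx (e.injective (by rw [h0, map_one]))
  constructor
  · intro m a b
    rw [map_mul, act_mul]
  · intro m
    rw [map_one, act_one]
  · intro m n a
    rw [act_add]
  · intro m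
    funext i
    exact CharTwo.add_self_eq_zero _
  · infer_instance
  · rw [Nat.card_eq_fintype_card, Fintype.card_fun, ZMod.card, Fintype.card_fin]
    exact dvd_pow_self 2 (by norm_num)
  · exact U3Run.v1_ne
  · rw [e.symm_apply_apply]
    exact U3Run.cert.2.1
  · rw [e.symm_apply_apply]
    exact U3Run.cert.2.2.1
  · refine ⟨e Cfsg.Agent.J4.Rep112.y, ?_⟩
    rw [e.symm_apply_apply]
    exact U3Run.cert.2.2.2
  · rw [← map_pow, U3Run.s1_pow, map_one]
  · rw [← map_pow, U3Run.s2_pow, map_one]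
  · exact hne U3Run.s1_ne
  · exact hne U3Run.s2_ne
  · exact hcl _ U3Run.c_mem
  · exact hcl _ U3Run.w_mem
  · exact hcl _ U3Run.yy_mem
  · exact hcl _ U3Run.h_mem
  · exact hcl _ U3Run.l_mem
  · exact hcl _ U3Run.g_mem
  · exact hcl _ U3Run.tt_mem
  · rw [U3Run.k_eq, map_mul]
  · rw [← map_pow, U3Run.c_pow, map_one]
  · rw [← map_mul, U3Run.c_s1, map_mul, map_mul]
  · refine ⟨?_, ?_, ?_, ?_, ?_, ?_, hne U3Run.w_ne⟩
    · rw [← map_pow, U3Run.c_pow, map_one]
    · rw [← map_pow, U3Run.yy_pow, map_one]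
    · rw [← map_pow, U3Run.w_pow, map_one]
    · rw [← map_mul, U3Run.c_w, map_mul]
    · rw [← map_mul, U3Run.yy_w, map_mul]
    · rw [← map_mul, U3Run.yy_c, map_mul, map_mul]
  · rw [← map_mul, U3Run.h_c]
    simp only [map_mul]
  · rw [← map_mul, U3Run.h_yy]
    simp only [map_mul]
  · rw [← map_mul, U3Run.h_w]
    simp only [map_mul]
  · rw [← map_pow, U3Run.h_pow, map_one]
  · rw [← map_pow]
    exact hne U3Run.h_ne
  · rw [← map_mul, U3Run.k_sq, map_one]
  · rw [← map_mul, U3Run.k_h, map_mul, map_pow]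
  · rw [← map_mul, U3Run.l_h]
    simp only [map_mul, map_pow]
  · rw [← map_pow, U3Run.g_cube, map_pow]
  · rw [← map_pow, U3Run.g_pow, map_one]
  · rw [← map_pow]
    exact hne U3Run.g_ne
  · intro h0
    apply U3Run.w_s1
    apply e.injective
    rw [map_mul, map_mul, h0]
  · rw [← map_mul, U3Run.tt_s1, map_mul]
  · intro v h1 h2 h3 m hh hl hm1 hm2
    rw [e.symm_apply_apply] at hh hl
    rw [e.symm_apply_apply] at hm2
    refine U3Run.enum_key (mem_InvL hG hJ e (v := e.symm v) ?_ (fun h0 => h2 ?_) ?_) hh hl hm1 hm2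
    · rw [← map_mul, h1, map_one]
    · rw [← e.apply_symm_apply v, h0, map_one]
    · apply e.injective
      rw [map_mul, map_mul, e.apply_symm_apply, h3]

/-- **`U₃(3)` is a maximal subgroup** -/
theorem part5 {G : Type u} [Group G] [Finite G] [IsSimpleGroup G] (hG : ¬ IsMulCommutative G)
    (hJ : IsOfJankoFourType G) (F : Facts G) (e : Cfsg.Spor.J4 ≃* G) :
    ∃ M : Subgroup G, IsCoatom M ∧ ∃ (F : Type) (_ : Field F) (_ : Fintype F),
      Fintype.card F = 9 ∧ Nonempty (M ≃* Cfsg.PSU 3 F 3) :=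
  (sys hG hJ e).main F (n27 hG hJ F)

end Cfsg.Agent.H865.U3Main
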