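import Cfsg.Agent.H865.U3Sys

/-!
# The proper overgroups of the subgroup `⟨s₁, s₂⟩`

`Sys.component` : a proper subgroup containing `⟨s₁, s₂⟩` normalizes a simple subgroup of order 6048 containing it.
-/

set_option autoImplicit false

namespace Cfsg.Agent.H865.U3Sys

open Cfsg Subgroup
open Cfsg.Agent.OrdDiv
open Cfsg.Agent.H866.J4Ord Cfsg.Agent.H866.J4Min Cfsg.Agent.H866.OddTools Cfsg.Agent.H866.J4Odd
open Cfsg.Agent.OddOrderLocal.SylIn Cfsg.Agent.OddOrderLocal
open Cfsg.Agent.H859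

universe u

/-- the normalizers of the Sylow 3-subgroups -/
def N27 (G : Type u) [Group G] : Prop :=
  ∀ P : Subgroup G, Nat.card P = 27 → Nat.card (normalizer (P : Set G)) = 864

theorem ords_189 : ∀ n ∈ ords, 27 ∣ n → 7 ∣ n → n = 6048 ∨ n = 244823040 ∨ n = nJ := by decide +kernel

theorem ords_not7 : ∀ n ∈ ords, ¬ 7 ∣ n → n = 60 ∨ n = 360 ∨
    ∃ q ∈ [11, 31, 37], q ∣ n ∧ ¬ q ^ 2 ∣ n := by decide +kernel

theorem names_m24 : ∀ x ∈ names, x.2 = 244823040 → x.1 = Grp.m24 := by decide +kernel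

variable {G : Type u} [Group G] [Finite G] {V : Type} [AddCommGroup V] {act : V → G → V}
  {s1 s2 c w yy h l k g tt : G} {v1 : V}

/-- the centralizers of the elements of order 7 -/
theorem card_cent7 (F : Facts G) {S : Subgroup G} (hS : Nat.card S = 7) :
    Nat.card (centralizer (S : Set G)) = 840 := by
  obtain ⟨h1, h2⟩ := F.n7 S hS
  omega

theorem card_zpowers7 {s : G} (hs : s ^ 7 = 1) (hs1 : s ≠ 1) : Nat.card (zpowers s) = 7 := by
  have : Fact (Nat.Prime 7) := ⟨by norm_num⟩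
  rw [Nat.card_zpowers, orderOf_eq_prime hs hs1]

theorem isPGroup7 {S : Subgroup G} (hS : Nat.card S = 7) : IsPGroup 7 S :=
  IsPGroup.of_card (n := 1) (by rw [hS, pow_one])

/-- a subgroup of prime order whose square does not divide `|G|` lies in the normal subgroups of order
divisible by this prime -/
theorem le_of_dvd (F : Facts G) {p : ℕ} (hp : p.Prime) (hp2 : ¬ p ^ 2 ∣ nJ) {P R : Subgroup G}
    (hP : Nat.card P = p) (hn : P ≤ normalizer (R : Set G)) (hd : p ∣ Nat.card R) : P ≤ R := by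
  have h1 := Subgroup.card_dvd_of_le (inf_le_left : P ⊓ R ≤ P)
  rw [hP] at h1
  rcases (Nat.dvd_prime hp).1 h1 with h2 | h2
  · exfalso
    have h3 := StdL2.G23Coset.card_sup_mul_card_inf hn
    rw [h2, mul_one, hP] at h3
    apply hp2
    refine dvd_trans ?_ (F.dvd (P ⊔ R))
    rw [h3, pow_two]
    exact Nat.mul_dvd_mul_left p hd
  · exact inf_eq_left.1 (Subgroup.eq_of_le_of_card_ge inf_le_left (by rw [hP, h2]))

/-- the intersection with the centralizer of an element of order 7 -/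
theorem cent_pow (F : Facts G) {S R : Subgroup G} (hS : Nat.card S = 7) (hn : S ≤ normalizer (R : Set G))
    {r j : ℕ} (hr : r.Prime) (hR : Nat.card R = r ^ j) : ∃ i ≤ j, r ^ j % 7 = r ^ i % 7 ∧ r ^ i ∣ 840 ∧
      Nat.card (R ⊓ centralizer (S : Set G) : Subgroup G) = r ^ i := by
  have : Fact (Nat.Prime 7) := ⟨by norm_num⟩
  have h1 := card_mod (isPGroup7 hS) hn
  have h2 := Subgroup.card_dvd_of_le (inf_le_left : R ⊓ centralizer (S : Set G) ≤ R)
  rw [hR] at h2
  obtain ⟨i, hi, h3⟩ := (Nat.dvd_prime_pow hr).1 h2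
  have h4 := Subgroup.card_dvd_of_le (inf_le_right : R ⊓ centralizer (S : Set G) ≤ centralizer (S : Set G))
  rw [card_cent7 F hS, h3] at h4
  rw [h3, hR] at h1
  exact ⟨i, hi, h1, h4, h3⟩

theorem le_cent (F : Facts G) {S R : Subgroup G} (hS : Nat.card S = 7) (hn : S ≤ normalizer (R : Set G))
    {r j : ℕ} (hr : r.Prime) (hR : Nat.card R = r ^ j)
    (h : ∀ i ≤ j, r ^ j % 7 = r ^ i % 7 → r ^ i ∣ 840 → i = j) : R ≤ centralizer (S : Set G) := by
  obtain ⟨i, hi, h1, h2, h3⟩ := cent_pow F hS hn hr hR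
  rw [h i hi h1 h2, ← hR] at h3
  exact inf_eq_left.1 (Subgroup.eq_of_le_of_card_ge inf_le_left h3.ge)

namespace Sys

theorem card_gp (S : Sys act s1 s2 c w yy h l k g tt v1) : Nat.card (Heis.gp S.rel) = 27 := by
  have : Fact (Nat.Prime 3) := ⟨Nat.prime_three⟩
  exact Heis.card S.rel

theorem gp_le (S : Sys act s1 s2 c w yy h l k g tt v1) : Heis.gp S.rel ≤ closure {s1, s2} :=
  Heis.gp_le S.rel S.c_mem S.yy_mem S.w_mem

theorem dvd27 (S : Sys act s1 s2 c w yy h l k g tt v1) {H : Subgroup G} (hH : closure {s1, s2} ≤ H) :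
    27 ∣ Nat.card H := by
  rw [← S.card_gp]
  exact Subgroup.card_dvd_of_le (S.gp_le.trans hH)

theorem z1_le (S : Sys act s1 s2 c w yy h l k g tt v1) : zpowers s1 ≤ closure {s1, s2} :=
  zpowers_le.2 (subset_closure (by simp))

theorem z2_le (S : Sys act s1 s2 c w yy h l k g tt v1) : zpowers s2 ≤ closure {s1, s2} :=
  zpowers_le.2 (subset_closure (by simp))

theorem dvd7 (S : Sys act s1 s2 c w yy h l k g tt v1) {H : Subgroup G} (hH : closure {s1, s2} ≤ H) :
    7 ∣ Nat.card H := by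
  rw [← card_zpowers7 S.s1_pow S.s1_ne]
  exact Subgroup.card_dvd_of_le (S.z1_le.trans hH)

/-- a subgroup centralized by both generators -/
theorem closure_le_cent (S : Sys act s1 s2 c w yy h l k g tt v1) {R : Subgroup G}
    (h1 : R ≤ centralizer (zpowers s1 : Set G)) (h2 : R ≤ centralizer (zpowers s2 : Set G)) :
    closure {s1, s2} ≤ centralizer (R : Set G) := by
  rw [closure_le]
  rintro _ (rfl | rfl)
  · exact (Subgroup.le_centralizer_iff.1 h1) (mem_zpowers _)
  · exact (Subgroup.le_centralizer_iff.1 h2) (mem_zpowers _)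

/-- `P` is the only subgroup of order a power of 3 between it and its normalizer -/
theorem le_gp (S : Sys act s1 s2 c w yy h l k g tt v1) (F : Facts G) {R : Subgroup G} (hR : IsPGroup 3 R)
    (hn : R ≤ normalizer (Heis.gp S.rel : Set G)) : R ≤ Heis.gp S.rel := by
  have : Fact (Nat.Prime 3) := ⟨Nat.prime_three⟩
  have h1 : IsPGroup 3 (R ⊔ Heis.gp S.rel : Subgroup G) :=
    IsPGroup.to_sup_of_normal_right' hR (Heis.isPGroup S.rel) hn
  obtain ⟨j, hj⟩ := IsPGroup.iff_card.1 h1
  have h2 : j ≤ 3 := by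
    by_contra h3
    have h4 : 3 ^ 4 ∣ nJ := (pow_dvd_pow 3 (by omega)).trans (hj ▸ F.dvd (R ⊔ Heis.gp S.rel))
    norm_num [nJ] at h4
  have h3 : Nat.card (R ⊔ Heis.gp S.rel : Subgroup G) ≤ Nat.card (Heis.gp S.rel) := by
    rw [hj, S.card_gp]
    exact Nat.pow_le_pow_right (by norm_num) h2
  have h4 := Subgroup.eq_of_le_of_card_ge (le_sup_right : Heis.gp S.rel ≤ R ⊔ Heis.gp S.rel) h3
  rw [h4]
  exact le_sup_left

/-- no elementary abelian normal subgroup -/
theorem no_abelian (S : Sys act s1 s2 c w yy h l k g tt v1) (F : Facts G) (N : N27 G) {R : Subgroup G}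
    (hR : R ≠ ⊥) (hn : closure {s1, s2} ≤ normalizer (R : Set G)) {r : ℕ} (hr : r.Prime)
    (h : IsElementaryAbelian r R) : False := by
  have f3 : Fact (Nat.Prime 3) := ⟨Nat.prime_three⟩
  have hS1 := card_zpowers7 S.s1_pow S.s1_ne
  have hS2 := card_zpowers7 S.s2_pow S.s2_ne
  have hn1 := S.z1_le.trans hn
  have hn2 := S.z2_le.trans hn
  have hN27 : 27 ∣ Nat.card (normalizer (R : Set G)) := S.dvd27 hn
  have hN7 : 7 ∣ Nat.card (normalizer (R : Set G)) := S.dvd7 hn
  obtain ⟨x, hx, j, hj1, hj2, -, hxr, hj⟩ := F.ea_card hR hr h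
  rw [hxr] at hj
  by_cases hr2 : r = 2
  · subst hr2
    refine S.no_local hR (fun x hx => ?_) hn
    have h1 := h.2 x hx
    rwa [pow_two] at h1
  -- the primes for which `R` is centralized
  have hcent : (∀ i ≤ j, r ^ j % 7 = r ^ i % 7 → r ^ i ∣ 840 → i = j) → closure {s1, s2} ≤ centralizer (R : Set G) :=
    fun h0 => S.closure_le_cent (le_cent F hS1 hn1 hr hj h0) (le_cent F hS2 hn2 hr hj h0)
  have hP : closure {s1, s2} ≤ centralizer (R : Set G) → R ≤ centralizer (Heis.gp S.rel : Set G) := fun h0 =>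
    Subgroup.le_centralizer_iff.1 (S.gp_le.trans h0)
  simp only [lJ, List.mem_cons, List.not_mem_nil, or_false] at hx
  rcases hx with rfl | rfl | rfl | rfl | rfl | rfl | rfl | rfl | rfl | rfl
  · exact hr2 hxr.symm
  · -- `r = 3`
    have hxr' : 3 = r := hxr
    have hj2' : j ≤ 3 := hj2
    subst hxr'
    have h1 : closure {s1, s2} ≤ centralizer (R : Set G) := hcent (by
      clear hcent hj hxr hj2
      interval_cases j <;> decide)
    have h2 := hP h1
    have h3 : R ≤ Heis.gp S.rel := S.le_gp F (fun x => ⟨1, by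
      rw [pow_one]; exact Subtype.ext (h.2 x x.2)⟩) (h2.trans (Subgroup.centralizer_le_normalizer _))
    have h4 : R ≤ zpowers w := fun x hx =>
      Heis.center_le S.rel (h3 hx) fun y hy => ((mem_centralizer_iff.1 (h2 hx)) y hy).symm
    have h5 : Nat.card (zpowers w) ≤ Nat.card R := by
      rw [Nat.card_zpowers, Heis.orderOf_w S.rel, hj]
      exact Nat.le_self_pow (by omega) 3
    have h6 : w ∈ R := by
      rw [Subgroup.eq_of_le_of_card_ge h4 h5]
      exact mem_zpowers w
    exact S.w_s1 ((mem_centralizer_iff.1 (h1 (subset_closure (by simp)))) w h6)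
  · -- `r = 5`
    have hxr' : 5 = r := hxr
    have hj2' : j ≤ 1 := hj2
    subst hxr'
    obtain rfl : j = 1 := by omega
    have h1 : closure {s1, s2} ≤ centralizer (R : Set G) := hcent (by decide)
    have h2 := Subgroup.card_dvd_of_le ((hP h1).trans (Subgroup.centralizer_le_normalizer _))
    rw [N _ S.card_gp, hj] at h2
    norm_num at h2
  · -- `r = 7`
    have hxr' : 7 = r := hxr
    have hj2' : j ≤ 1 := hj2
    subst hxr'
    obtain rfl : j = 1 := by omega
    rw [(F.n7 R (by rw [hj, pow_one])).1] at hN27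
    norm_num at hN27
  · -- `r = 11`
    have hxr' : 11 = r := hxr
    have hj2' : j ≤ 3 := hj2
    subst hxr'
    obtain ⟨i, hi, h1, h2, -⟩ := cent_pow F hS1 hn1 hr hj
    have h3 : i = 0 := by
      by_contra h0
      have h4 := (dvd_pow_self 11 h0).trans h2
      norm_num at h4
    subst h3
    have h4 : j = 3 := by
      clear hcent hj hj2 hxr
      interval_cases j
      · norm_num at h1
      · norm_num at h1
      · rfl
    subst h4
    rw [F.n11 R hj] at hN7
    norm_num at hN7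
  · -- `r = 23`
    have hxr' : 23 = r := hxr
    have hj2' : j ≤ 1 := hj2
    subst hxr'
    obtain rfl : j = 1 := by omega
    obtain ⟨i, hi, h1, h2, -⟩ := cent_pow F hS1 hn1 hr hj
    interval_cases i
    · norm_num at h1
    · norm_num at h2
  · -- `r = 29`
    have hxr' : 29 = r := hxr
    have hj2' : j ≤ 1 := hj2
    subst hxr'
    obtain rfl : j = 1 := by omega
    rw [F.n29 R (by rw [hj, pow_one])] at hN27
    norm_num at hN27
  · -- `r = 31`
    have hxr' : 31 = r := hxr
    have hj2' : j ≤ 1 := hj2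
    subst hxr'
    obtain rfl : j = 1 := by omega
    obtain ⟨i, hi, h1, h2, -⟩ := cent_pow F hS1 hn1 hr hj
    interval_cases i
    · norm_num at h1
    · norm_num at h2
  · -- `r = 37`
    have hxr' : 37 = r := hxr
    have hj2' : j ≤ 1 := hj2
    subst hxr'
    obtain rfl : j = 1 := by omega
    obtain ⟨i, hi, h1, h2, -⟩ := cent_pow F hS1 hn1 hr hj
    interval_cases i
    · norm_num at h1
    · norm_num at h2
  · -- `r = 43`
    have hxr' : 43 = r := hxr
    have hj2' : j ≤ 1 := hj2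
    subst hxr'
    obtain rfl : j = 1 := by omega
    rw [F.n43 R (by rw [hj, pow_one])] at hN27
    norm_num at hN27

theorem order_g (S : Sys act s1 s2 c w yy h l k g tt v1) : orderOf g = 12 := by
  have h1 : orderOf g ∣ 12 := orderOf_dvd_of_pow_eq_one S.g_pow
  have h2 : ∀ n : ℕ, n ∣ 4 → orderOf g ≠ n := by
    rintro n hn rfl
    exact S.g_ne (orderOf_dvd_iff_pow_eq_one.1 hn)
  have h3 : ∀ n : ℕ, n ∣ 6 → orderOf g ≠ n := by
    rintro n hn rfl
    have h4 := orderOf_dvd_iff_pow_eq_one.1 hn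
    have h5 : g ^ 6 = (g ^ 3) ^ 2 := by rw [← pow_mul]
    rw [h5, S.g_cube, ← pow_mul] at h4
    exact S.h_ne h4
  have h4 : ∀ n ∈ Nat.divisors 12, ¬ n ∣ 4 → ¬ n ∣ 6 → n = 12 := by decide
  exact h4 _ (Nat.mem_divisors.2 ⟨h1, by norm_num⟩) (fun h5 => h2 _ h5 rfl) (fun h5 => h3 _ h5 rfl)

/-- an invariant Sylow subgroup centralized by both elements of order 7 -/
theorem dvd_cent (F : Facts G) {T R : Subgroup G} (hT : Nat.card T = 7) (hn : T ≤ normalizer (R : Set G))
    (h7 : ¬ 7 ∣ Nat.card R) {q a : ℕ} (hq : q.Prime) (hR1 : q ^ a ∣ Nat.card R) (hR2 : ¬ q ^ (a + 1) ∣ Nat.card R)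
    (h : ∀ i ≤ a, q ^ a % 7 = q ^ i % 7 → i = a) :
    q ^ a ∣ Nat.card (R ⊓ centralizer (T : Set G) : Subgroup G) := by
  have : Fact q.Prime := ⟨hq⟩
  have hR : (Nat.card R).factorization q = a := by
    apply le_antisymm
    · by_contra h0
      push Not at h0
      exact hR2 ((Nat.pow_dvd_pow q h0).trans (Nat.ordProj_dvd _ _))
    · exact (hq.pow_dvd_iff_le_factorization Nat.card_pos.ne').1 hR1
  have : Fact (Nat.Prime 7) := ⟨by norm_num⟩
  obtain ⟨Q, hQ⟩ := Lib.CoprimeHyperplane.exists_invariant_sylow (isPGroup7 hT) hn h7 q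
  have h1 : Nat.card ((Q : Subgroup R).map R.subtype : Subgroup G) = q ^ a := by
    rw [Subgroup.card_map_of_injective R.subtype_injective, Q.card_eq_multiplicity, hR]
  have h2 := le_cent F hT hQ hq h1 fun i hi h3 _ => h i hi h3
  rw [← h1]
  exact Subgroup.card_dvd_of_le (le_inf (Subgroup.map_subtype_le _) h2)

/-- **the components of the proper overgroups** -/
theorem component (S : Sys act s1 s2 c w yy h l k g tt v1) (F : Facts G) (N : N27 G) {H : Subgroup G}
    (hU : closure {s1, s2} ≤ H) (hH : H ≠ ⊤) : ∃ R : Subgroup G, R ≤ H ∧ H ≤ normalizer (R : Set G) ∧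
      IsSimpleGroup R ∧ (¬ ∀ a b : R, a * b = b * a) ∧ Nat.card R = 6048 ∧ closure {s1, s2} ≤ R := by
  have f7 : Fact (Nat.Prime 7) := ⟨by norm_num⟩
  have f2 : Fact (Nat.Prime 2) := ⟨Nat.prime_two⟩
  have hS1 := card_zpowers7 S.s1_pow S.s1_ne
  have hS2 := card_zpowers7 S.s2_pow S.s2_ne
  have hH1 : H ≠ ⊥ := by
    rintro rfl
    exact S.s1_ne (mem_bot.1 (hU (subset_closure (by simp))))
  obtain ⟨R, hRH, hR, hn, -, hcase⟩ := exists_min F.tab F.known (F.card ▸ dvd_rfl) H hH1
  have hUn := hU.trans hn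
  rcases hcase with ⟨r, hr, hea⟩ | ⟨h1, h2, h3⟩
  · exact (S.no_abelian F N hR hUn hr hea).elim
  by_cases h7 : 7 ∣ Nat.card R
  · have h72 : ¬ 7 ^ 2 ∣ nJ := by norm_num [nJ]
    have hle1 := le_of_dvd F f7.out h72 hS1 (S.z1_le.trans hUn) h7
    have hle2 := le_of_dvd F f7.out h72 hS2 (S.z2_le.trans hUn) h7
    have hle : closure {s1, s2} ≤ R := by
      rw [closure_le]
      rintro _ (rfl | rfl)
      · exact hle1 (mem_zpowers _)
      · exact hle2 (mem_zpowers _)
    rcases ords_189 _ h3 (S.dvd27 hle) h7 with h4 | h4 | h4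
    · exact ⟨R, hRH, hn, h1, h2, h4, hle⟩
    · exfalso
      obtain ⟨x, hx, hr, hxc⟩ := exists_name F.tab (F.known R) h2 (F.dvd R)
      rw [names_m24 x hx (by rw [← hxc, h4])] at hr
      refine H862.M24EightTwelve.iso_no (G := R) hr ⟨h, hle S.h_mem⟩ ⟨g, hle S.g_mem⟩ ?_ ?_ ?_
      · rw [Subgroup.orderOf_mk]
        exact orderOf_eq_prime_pow (p := 2) (n := 2) S.h_ne S.h_pow
      · rw [Subgroup.orderOf_mk]
        exact S.order_g
      · exact Subtype.ext S.g_cube.symm
    · exact absurd (top_le_iff.1 (F.eq_top h4 ▸ hRH)) hH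
  · exfalso
    have hn1 := S.z1_le.trans hUn
    have hn2 := S.z2_le.trans hUn
    rcases ords_not7 _ h3 h7 with h4 | h4 | ⟨q, hq, hqd, hq2⟩
    · have hc : ∀ T : Subgroup G, Nat.card T = 7 → T ≤ normalizer (R : Set G) → R ≤ centralizer (T : Set G) := by
        intro T hT hTn
        have e2 := dvd_cent F hT hTn h7 (q := 2) (a := 2) (by norm_num) (by rw [h4]; norm_num)
          (by rw [h4]; norm_num) (by decide)
        have e3 := dvd_cent F hT hTn h7 (q := 3) (a := 1) (by norm_num) (by rw [h4]; norm_num)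
          (by rw [h4]; norm_num) (by decide)
        have e5 := dvd_cent F hT hTn h7 (q := 5) (a := 1) (by norm_num) (by rw [h4]; norm_num)
          (by rw [h4]; norm_num) (by decide)
        have e6 : 60 ∣ Nat.card (R ⊓ centralizer (T : Set G) : Subgroup G) := by omega
        have e7 := Nat.le_of_dvd Nat.card_pos e6
        exact inf_eq_left.1 (Subgroup.eq_of_le_of_card_ge inf_le_left (by rw [h4]; exact e7))
      have h5 := S.closure_le_cent (hc _ hS1 hn1) (hc _ hS2 hn2)
      obtain ⟨t, ht⟩ := exists_prime_orderOf_dvd_card' (G := R) 2 (by rw [h4]; norm_num)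
      have ht2 : (t : G) ^ 2 = 1 := by
        rw [← ht, ← Subgroup.orderOf_coe, pow_orderOf_eq_one]
      refine S.no_local (E := zpowers (t : G)) ?_ ?_ ?_
      · rw [Ne, zpowers_eq_bot]
        intro h6
        rw [← Subgroup.orderOf_coe, h6, orderOf_one] at ht
        norm_num at ht
      · rintro _ ⟨n, rfl⟩
        show (t : G) ^ n * (t : G) ^ n = 1
        rw [← (Commute.refl (t : G)).mul_zpow n, ← pow_two, ht2, one_zpow]
      · refine (h5.trans ?_).trans (Subgroup.centralizer_le_normalizer _)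
        exact centralizer_le (by
          rintro _ ⟨n, rfl⟩
          exact zpow_mem t.2 n)
    · have e3 := dvd_cent F hS1 hn1 h7 (q := 3) (a := 2) (by norm_num) (by rw [h4]; norm_num)
        (by rw [h4]; norm_num) (by decide)
      have e4 := e3.trans (Subgroup.card_dvd_of_le inf_le_right)
      rw [card_cent7 F hS1] at e4
      norm_num at e4
    · have hqp : q.Prime ∧ ¬ 7 ∣ q - 1 ∧ ¬ q ∣ 840 := by
        simp only [List.mem_cons, List.not_mem_nil, or_false] at hq
        rcases hq with rfl | rfl | rfl <;> norm_num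
      obtain ⟨Y, -, hY, hYc⟩ := exists_cent (isPGroup7 hS1) hn1 h7 hqp.1 hqd hq2 hqp.2.1
      apply hqp.2.2
      rw [← hY, ← card_cent7 F hS1]
      exact Subgroup.card_dvd_of_le hYc

end Sys

end Cfsg.Agent.H865.U3Sys
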