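import Cfsg.Agent.H865.U3Frob
import Cfsg.Agent.H866.J4Odd
import Cfsg.Agent.H859.Heis
import Cfsg.Agent.H862.M24EightTwelve

/-!
# The overgroups of a subgroup `U₃(3)` of the fourth Janko group

An abstract form: `Sys act s1 s2 c w yy h l k g tt v1` collects the relations of the generators and the
key property of the fixed vectors.
-/

set_option autoImplicit false

namespace Cfsg.Agent.H865.U3Sys

open Cfsg Subgroup
open Cfsg.Agent.OrdDiv
open Cfsg.Agent.H866.J4Ord Cfsg.Agent.H866.J4Min Cfsg.Agent.H866.OddTools Cfsg.Agent.H866.J4Odd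
open Cfsg.Agent.OddOrderLocal.SylIn Cfsg.Agent.OddOrderLocal

universe u

/-- the relations -/
structure Sys {G : Type u} [Group G] {V : Type} [AddCommGroup V] (act : V → G → V)
    (s1 s2 c w yy h l k g tt : G) (v1 : V) : Prop where
  act_mul : ∀ (m : V) (a b : G), act m (a * b) = act (act m a) b
  act_one : ∀ m : V, act m 1 = m
  act_add : ∀ (m n : V) (a : G), act (m + n) a = act m a + act n a
  v2 : ∀ m : V, m + m = 0
  fin : Finite V
  even : 2 ∣ Nat.card V
  v1_ne : v1 ≠ 0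
  v1_s1 : act v1 s1 = v1
  v1_s2 : act v1 s2 = v1
  v1_y : ∃ y : G, act v1 y ≠ v1
  s1_pow : s1 ^ 7 = 1
  s2_pow : s2 ^ 7 = 1
  s1_ne : s1 ≠ 1
  s2_ne : s2 ≠ 1
  c_mem : c ∈ closure {s1, s2}
  w_mem : w ∈ closure {s1, s2}
  yy_mem : yy ∈ closure {s1, s2}
  h_mem : h ∈ closure {s1, s2}
  l_mem : l ∈ closure {s1, s2}
  g_mem : g ∈ closure {s1, s2}
  tt_mem : tt ∈ closure {s1, s2}
  k_eq : k = l * l
  c_pow : c ^ 3 = 1
  c_s1 : c * s1 = s1 * s1 * c
  rel : H859.Heis.Rel 3 c yy w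
  h_c : h * c = c * yy * yy * h
  h_yy : h * yy = c * yy * w * h
  h_w : h * w = w * w * h
  h_pow : h ^ 8 = 1
  h_ne : h ^ 4 ≠ 1
  k_sq : k * k = 1
  k_h : k * h = h ^ 5 * k
  l_h : l * h = h ^ 7 * k * l
  g_cube : g ^ 3 = h ^ 2
  g_pow : g ^ 12 = 1
  g_ne : g ^ 4 ≠ 1
  w_s1 : w * s1 ≠ s1 * w
  tt_s1 : tt * s1 = s2 * tt
  key : ∀ v : G, v * v = 1 → v ≠ 1 → v * c = c * v → ∀ m : V, act m h = m → act m l = m → act m v = m →
    act (act m s2) v = act m s2 → m = 0

variable {G : Type u} [Group G] [Finite G] {V : Type} [AddCommGroup V] {act : V → G → V}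
  {s1 s2 c w yy h l k g tt : G} {v1 : V}

/-- in a finite group -/
theorem mem_normalizer_of_conj_le {A : Subgroup G} {x : G} (hx : ∀ a ∈ A, x * a * x⁻¹ ∈ A) :
    x ∈ normalizer (A : Set G) := by
  have h2 : A.map (MulAut.conj x).toMonoidHom = A := by
    apply Subgroup.eq_of_le_of_card_ge
    · rintro _ ⟨a, ha, rfl⟩
      exact hx a ha
    · exact (Nat.card_congr (A.equivMapOfInjective (MulAut.conj x).toMonoidHom
        (MulAut.conj x).injective).toEquiv).le
  rw [Subgroup.mem_normalizer_iff_map_conj_eq]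
  exact h2

namespace Sys

/-- the 2-subgroup -/
def T0 (_ : Sys act s1 s2 c w yy h l k g tt v1) : Subgroup G := zpowers l ⊔ (zpowers k ⊔ zpowers h)

theorem k_mem (S : Sys act s1 s2 c w yy h l k g tt v1) : k ∈ closure {s1, s2} := by
  rw [S.k_eq]
  exact mul_mem S.l_mem S.l_mem

theorem T0_le (S : Sys act s1 s2 c w yy h l k g tt v1) : S.T0 ≤ closure {s1, s2} :=
  sup_le (zpowers_le.2 S.l_mem) (sup_le (zpowers_le.2 S.k_mem) (zpowers_le.2 S.h_mem))

theorem isPGroup_zpowers {x : G} {n : ℕ} (hx : x ^ 2 ^ n = 1) : IsPGroup 2 (zpowers x) := by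
  have h1 : orderOf x ∣ 2 ^ n := orderOf_dvd_of_pow_eq_one hx
  obtain ⟨j, -, hj⟩ := (Nat.dvd_prime_pow Nat.prime_two).1 h1
  exact IsPGroup.of_card (n := j) (by rw [Nat.card_zpowers, hj])

theorem T0_isPGroup (S : Sys act s1 s2 c w yy h l k g tt v1) : IsPGroup 2 S.T0 := by
  have hk : k ∈ normalizer (zpowers h : Set G) := by
    apply mem_normalizer_of_conj_le
    rintro _ ⟨n, rfl⟩
    show k * h ^ n * k⁻¹ ∈ _
    rw [← conj_zpow, S.k_h, mul_inv_cancel_right]
    exact zpow_mem (pow_mem (mem_zpowers h) 5) n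
  have h1 : IsPGroup 2 (zpowers k ⊔ zpowers h : Subgroup G) :=
    IsPGroup.to_sup_of_normal_right' (isPGroup_zpowers (n := 1) (by rw [pow_one, pow_two]; exact S.k_sq))
      (isPGroup_zpowers (n := 3) S.h_pow) (zpowers_le.2 hk)
  have hkm : k ∈ zpowers k ⊔ zpowers h := mem_sup_left (mem_zpowers k)
  have hhm : h ∈ zpowers k ⊔ zpowers h := mem_sup_right (mem_zpowers h)
  have hl : l ∈ normalizer ((zpowers k ⊔ zpowers h : Subgroup G) : Set G) := by
    apply mem_normalizer_of_conj_le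
    have h3 : l * k * l⁻¹ ∈ zpowers k ⊔ zpowers h := by
      have h3 : l * k * l⁻¹ = k := by rw [S.k_eq]; group
      rw [h3]
      exact hkm
    have h4 : l * h * l⁻¹ ∈ zpowers k ⊔ zpowers h := by
      rw [S.l_h, mul_inv_cancel_right]
      exact mul_mem (pow_mem hhm 7) hkm
    have h2 : zpowers k ⊔ zpowers h ≤ (zpowers k ⊔ zpowers h).comap (MulAut.conj l).toMonoidHom :=
      sup_le (zpowers_le.2 h3) (zpowers_le.2 h4)
    exact fun a ha => h2 ha
  refine IsPGroup.to_sup_of_normal_right' (isPGroup_zpowers (n := 2) ?_) h1 (zpowers_le.2 hl)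
  have h3 : l ^ 2 ^ 2 = (l * l) * (l * l) := by
    show l ^ 4 = _
    simp only [pow_succ, pow_zero, one_mul, mul_assoc]
  rw [h3, ← S.k_eq, S.k_sq]

theorem act_zero (S : Sys act s1 s2 c w yy h l k g tt v1) (a : G) : act 0 a = 0 := by
  have h1 := S.act_add 0 0 a
  rw [add_zero] at h1
  exact left_eq_add.1 h1

/-- a 2-subgroup fixes a vector -/
theorem exists_vec (S : Sys act s1 s2 c w yy h l k g tt v1) {Q : Subgroup G} (hQ : IsPGroup 2 Q) :
    ∃ m : V, m ≠ 0 ∧ ∀ q ∈ Q, act m q = m := by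
  have := S.fin
  have : Fact (Nat.Prime 2) := ⟨Nat.prime_two⟩
  let _ : MulAction Q V :=
    { smul := fun q m => act m (q : G)⁻¹
      one_smul := fun m => by
        show act m ((1 : Q) : G)⁻¹ = m
        rw [coe_one, inv_one, S.act_one]
      mul_smul := fun a b m => by
        show act m ((a * b : Q) : G)⁻¹ = act (act m (b : G)⁻¹) (a : G)⁻¹
        rw [coe_mul, mul_inv_rev, S.act_mul] }
  have hsm : ∀ (q : Q) (m : V), q • m = act m (q : G)⁻¹ := fun _ _ => rfl
  have h0 : (0 : V) ∈ MulAction.fixedPoints Q V := fun q => by rw [hsm, S.act_zero]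
  obtain ⟨m, hm, hne⟩ := hQ.exists_fixed_point_of_prime_dvd_card_of_fixed_point V S.even h0
  refine ⟨m, hne.symm, fun q hq => ?_⟩
  have h1 := hm ⟨q⁻¹, Q.inv_mem hq⟩
  rw [hsm] at h1
  rwa [inv_inv] at h1

/-- **no 2-local overgroups** -/
theorem no_local (S : Sys act s1 s2 c w yy h l k g tt v1) {E : Subgroup G} (hE1 : E ≠ ⊥)
    (hE : ∀ x ∈ E, x * x = 1) (hn : closure {s1, s2} ≤ normalizer (E : Set G)) : False := by
  by_cases hno : ∀ x ∈ E, c * x = x * c → x = 1
  · have h1 := U3Frob.exists_fixed hE S.s1_pow S.c_pow S.c_s1 (hn (subset_closure (by simp))) (hn S.c_mem) hno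
    have h2 : ∀ x ∈ E, s2 * x = x * s2 := by
      intro x hx
      have h3 := h1 (tt⁻¹ * x * tt) (by
        have h4 := ((mem_normalizer_iff.1 ((normalizer (E : Set G)).inv_mem (hn S.tt_mem))) x).1 hx
        rwa [inv_inv] at h4)
      have h4 : s2 = tt * s1 * tt⁻¹ := by rw [S.tt_s1, mul_inv_cancel_right]
      calc s2 * x = tt * (s1 * (tt⁻¹ * x * tt)) * tt⁻¹ := by rw [h4]; group
        _ = x * s2 := by rw [h3, h4]; group
    have h3 : closure {s1, s2} ≤ centralizer (E : Set G) := by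
      rw [closure_le]
      rintro _ (rfl | rfl)
      · exact mem_centralizer_iff.2 fun x hx => (h1 x hx).symm
      · exact mem_centralizer_iff.2 fun x hx => (h2 x hx).symm
    apply hE1
    rw [eq_bot_iff]
    intro x hx
    rw [mem_bot]
    exact hno x hx ((mem_centralizer_iff.1 (h3 S.c_mem)) x hx).symm
  · push Not at hno
    obtain ⟨v, hv, hvc, hv1⟩ := hno
    have hEp : IsPGroup 2 E := fun x => ⟨1, Subtype.ext (by
      rw [pow_one, pow_two]
      exact hE x x.2)⟩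
    obtain ⟨m, hm, hf⟩ := S.exists_vec (IsPGroup.to_sup_of_normal_right' S.T0_isPGroup hEp (S.T0_le.trans hn))
    refine hm (S.key v (hE v hv) hv1 hvc.symm m ?_ ?_ ?_ ?_)
    · exact hf h (mem_sup_left (mem_sup_right (mem_sup_right (mem_zpowers h))))
    · exact hf l (mem_sup_left (mem_sup_left (mem_zpowers l)))
    · exact hf v (mem_sup_right hv)
    · have h1 : s2 * v * s2⁻¹ ∈ E := ((mem_normalizer_iff.1 (hn (subset_closure (by simp)))) v).1 hv
      have h2 := hf _ (mem_sup_right h1)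
      rw [← S.act_mul]
      have h3 : s2 * v = s2 * v * s2⁻¹ * s2 := by group
      rw [h3, S.act_mul, h2]

end Sys

end Cfsg.Agent.H865.U3Sys
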